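import Mathlib
import Cfsg.Agent.Lib.Helper82.S4415.MonDefs

/-!
S4415, package [MON], sub-package [MON-IND] (helper83): non-zero weight vectors with pairwise
different characters are linearly independent.
-/

set_option autoImplicit false

namespace Cfsg.Agent.Lib.Helper83.S4415

open Cfsg.Agent.Lib.Helper78.S4415 Cfsg.Agent.Lib.Helper82.S4415

universe u v

theorem pkgMonInd : PkgMonInd.{u, v} := by
  intro G _ V _ _ ρ N ι f hf0 hwt hsep
  classical
  rw [linearIndependent_iff']
  intro s
  induction s using Finset.induction_on with
  | empty => intro g _ i hi; simp at hi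
  | insert a s ha ih =>
    intro g hg
    rw [Finset.sum_insert ha] at hg
    have hs : ∀ j ∈ s, g j = 0 := by
      intro j hj
      have hja : a ≠ j := fun h => ha (h ▸ hj)
      obtain ⟨x, hx, hx'⟩ := hsep a j hja
      have hε : ∀ i, ∃ c : ZMod 3, ρ x (f i) = c • f i := by
        intro i
        rcases hwt i x hx with h | h
        · exact ⟨1, by rw [h, one_smul]⟩
        · exact ⟨-1, by rw [h, neg_smul, one_smul]⟩
      choose ε hε using hε
      have hne : ε j - ε a ≠ 0 := by
        have key : ∀ (i : ι) (c : ZMod 3), ρ x (f i) = c • f i → ε i = c := by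
          intro i c hc
          have h1 : (ε i - c) • f i = 0 := by rw [sub_smul, ← hε i, hc, sub_self]
          rcases smul_eq_zero.mp h1 with h2 | h2
          · exact sub_eq_zero.mp h2
          · exact absurd h2 (hf0 i)
        rcases hx' with ⟨h1, h2⟩ | ⟨h1, h2⟩
        · have e1 : ε a = 1 := key a 1 (by rw [h1, one_smul])
          have e2 : ε j = -1 := key j (-1) (by rw [h2, neg_smul, one_smul])
          rw [e1, e2]; decide
        · have e1 : ε a = -1 := key a (-1) (by rw [h1, neg_smul, one_smul])
          have e2 : ε j = 1 := key j 1 (by rw [h2, one_smul])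
          rw [e1, e2]; decide
      have h1 : g a • ρ x (f a) + ∑ i ∈ s, g i • ρ x (f i) = 0 := by
        have h0 := congrArg (ρ x) hg
        rw [map_add, map_smul, map_sum, map_zero] at h0
        rw [← h0]
        congr 1
        apply Finset.sum_congr rfl
        intro i _
        rw [map_smul]
      have h2 : ∑ i ∈ s, (g i * (ε i - ε a)) • f i = 0 := by
        have e1 : ∑ i ∈ s, (g i * (ε i - ε a)) • f i
            = (∑ i ∈ s, g i • ρ x (f i)) - ε a • ∑ i ∈ s, g i • f i := by
          rw [Finset.smul_sum, ← Finset.sum_sub_distrib]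
          apply Finset.sum_congr rfl
          intro i _
          rw [hε i]; module
        have e2 : ∑ i ∈ s, g i • ρ x (f i) = -(g a • ρ x (f a)) :=
          eq_neg_of_add_eq_zero_right h1
        have e3 : ∑ i ∈ s, g i • f i = -(g a • f a) := eq_neg_of_add_eq_zero_right hg
        rw [e1, e2, e3, hε a]; module
      rcases mul_eq_zero.mp (ih (fun i => g i * (ε i - ε a)) h2 j hj) with h | h
      · exact h
      · exact absurd h hne
    have hsum : ∑ i ∈ s, g i • f i = 0 :=
      Finset.sum_eq_zero (fun i hi => by rw [hs i hi, zero_smul])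
    rw [hsum, add_zero] at hg
    have hga : g a = 0 := (smul_eq_zero.mp hg).resolve_right (hf0 a)
    intro i hi
    rcases Finset.mem_insert.mp hi with h | h
    · rw [h]; exact hga
    · exact hs i h

end Cfsg.Agent.Lib.Helper83.S4415
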