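import Mathlib
import Cfsg.Agent.Lib.Helper82.S4415.MonDefs

/-!
S4415, package [MON], sub-package [MON-ORB] (helper83): the monomial structure on the orbit of
the weight line `F w` (index type `G ⧸ H`, `H` the stabilizer of the line).
-/

set_option autoImplicit false

namespace Cfsg.Agent.Lib.Helper83.S4415

open Cfsg.Agent.Lib.Helper78.S4415 Cfsg.Agent.Lib.Helper82.S4415

universe u v

theorem pkgMonOrb (hInd : PkgMonInd.{u, v}) : PkgMonOrb.{u, v} := by
  intro G _ _ V _ _ ρ N b w hirr hN hb3 hW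
  obtain ⟨hw0, hwN, hwline, hwb, hw5⟩ := hW
  classical
  have hρmul : ∀ (g h : G) (v : V), ρ (g * h) v = ρ g (ρ h v) := fun g h v => by
    rw [map_mul]; rfl
  have hρone : ∀ v : V, ρ 1 v = v := fun v => by rw [map_one]; rfl
  have hρinv : ∀ (g : G) (v : V), ρ g⁻¹ (ρ g v) = v := fun g v => by
    rw [← hρmul, inv_mul_cancel, hρone]
  have hρinv' : ∀ (g : G) (v : V), ρ g (ρ g⁻¹ v) = v := fun g v => by
    rw [← hρmul, mul_inv_cancel, hρone]
  have hρ0 : ∀ (g : G) (v : V), ρ g v = 0 → v = 0 := by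
    intro g v h
    have h1 := hρinv g v
    rw [h, map_zero] at h1
    exact h1.symm
  have hsign : ∀ (a : ZMod 3) (v : V), a ≠ 0 → a • v = v ∨ a • v = -v := by
    intro a v ha
    have h1 : a = 1 ∨ a = -1 := by revert ha; revert a; decide
    rcases h1 with h | h
    · left; rw [h, one_smul]
    · right; rw [h, neg_smul, one_smul]
  obtain ⟨H, hH⟩ : ∃ H : Subgroup G, ∀ g, g ∈ H ↔ (ρ g w = w ∨ ρ g w = -w) :=
    ⟨{ carrier := {g | ρ g w = w ∨ ρ g w = -w}
       mul_mem' := by
         intro g h hg hh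
         show ρ (g * h) w = w ∨ ρ (g * h) w = -w
         rw [hρmul]
         rcases hh with hh | hh <;> rcases hg with hg | hg
         · left; rw [hh, hg]
         · right; rw [hh, hg]
         · right; rw [hh, map_neg, hg]
         · left; rw [hh, map_neg, hg, neg_neg]
       one_mem' := Or.inl (hρone w)
       inv_mem' := by
         intro g hg
         show ρ g⁻¹ w = w ∨ ρ g⁻¹ w = -w
         rcases hg with hg | hg
         · left
           have h1 := hρinv g w
           rw [hg] at h1; exact h1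
         · right
           have h1 := hρinv g w
           rw [hg, map_neg] at h1
           exact neg_eq_iff_eq_neg.mp h1 }, fun g => Iff.rfl⟩
  obtain ⟨s, hs⟩ : ∃ s : G ⧸ H → G, ∀ q, (QuotientGroup.mk (s q) : G ⧸ H) = q :=
    ⟨fun q => q.out, fun q => QuotientGroup.out_eq' q⟩
  obtain ⟨f, hf⟩ : ∃ f : G ⧸ H → V, ∀ q, f q = ρ (s q) w := ⟨fun q => ρ (s q) w, fun q => rfl⟩
  have hmkeq : ∀ g g' : G, (QuotientGroup.mk g : G ⧸ H) = QuotientGroup.mk g' ↔
      (ρ (g⁻¹ * g') w = w ∨ ρ (g⁻¹ * g') w = -w) := by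
    intro g g'
    rw [QuotientGroup.eq, hH]
  have hsm : ∀ g a : G, g • (QuotientGroup.mk a : G ⧸ H) = QuotientGroup.mk (g * a) :=
    fun g a => rfl
  have hsmul : ∀ (g : G) (q : G ⧸ H), g • q = QuotientGroup.mk (g * s q) := by
    intro g q
    rw [← hsm, hs]
  have K1 : ∀ (g : G) (q : G ⧸ H), ρ g (f q) = f (g • q) ∨ ρ g (f q) = -f (g • q) := by
    intro g q
    have h1 : (QuotientGroup.mk (g * s q) : G ⧸ H) = QuotientGroup.mk (s (g • q)) := by
      rw [hs, hsmul]
    rw [hmkeq] at h1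
    have h2 : ρ g (f q) = ρ (g * s q) w := by rw [hf, hρmul]
    have h3 : f (g • q) = ρ (g * s q) (ρ ((g * s q)⁻¹ * s (g • q)) w) := by
      rw [hf, ← hρmul, mul_inv_cancel_left]
    rcases h1 with h1 | h1
    · left; rw [h3, h1, h2]
    · right; rw [h3, h1, map_neg, neg_neg, h2]
  have hf0 : ∀ q, f q ≠ 0 := fun q h => hw0 (hρ0 (s q) w (by rw [← hf]; exact h))
  have hwt : ∀ (g : G), ∀ x ∈ N, ρ x (ρ g w) = ρ g w ∨ ρ x (ρ g w) = -ρ g w := by
    intro g x hx
    have hx' : g⁻¹ * x * g ∈ N := by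
      have h1 := hN.conj_mem x hx g⁻¹
      rw [inv_inv] at h1; exact h1
    have e : x * g = g * (g⁻¹ * x * g) := by group
    have h1 : ρ x (ρ g w) = ρ g (ρ (g⁻¹ * x * g) w) := by
      rw [← hρmul, ← hρmul, ← e]
    rcases hwN _ hx' with h | h
    · left; rw [h1, h]
    · right; rw [h1, h, map_neg]
  have hσN : ∀ x ∈ N, ∀ q : G ⧸ H, x • q = q := by
    intro x hx q
    rw [hsmul]
    conv_rhs => rw [← hs q]
    rw [hmkeq]
    have hx' : (x * s q)⁻¹ * s q ∈ N := by
      have h1 := hN.conj_mem x⁻¹ (inv_mem hx) (s q)⁻¹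
      rw [inv_inv] at h1
      have e : (x * s q)⁻¹ * s q = (s q)⁻¹ * x⁻¹ * s q := by group
      rw [e]; exact h1
    exact hwN _ hx'
  have hsep : ∀ q q' : G ⧸ H, q ≠ q' → ∃ x ∈ N, (ρ x (f q) = f q ∧ ρ x (f q') = -f q') ∨
      (ρ x (f q) = -f q ∧ ρ x (f q') = f q') := by
    intro q q' hne
    by_contra hcon
    apply hne
    have hu : ∀ x ∈ N, (ρ x w = w → ρ x (ρ (s q)⁻¹ (f q')) = ρ (s q)⁻¹ (f q')) ∧
        (ρ x w = -w → ρ x (ρ (s q)⁻¹ (f q')) = -ρ (s q)⁻¹ (f q')) := by
      intro x hx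
      have hx' : s q * x * (s q)⁻¹ ∈ N := hN.conj_mem x hx (s q)
      have e1 : ρ (s q * x * (s q)⁻¹) (f q) = ρ (s q) (ρ x w) := by
        have e : s q * x * (s q)⁻¹ * s q = s q * x := by group
        rw [hf, ← hρmul, ← hρmul, e]
      have e2 : ρ x (ρ (s q)⁻¹ (f q')) = ρ (s q)⁻¹ (ρ (s q * x * (s q)⁻¹) (f q')) := by
        have e : (s q)⁻¹ * (s q * x * (s q)⁻¹) = x * (s q)⁻¹ := by group
        rw [← hρmul, ← hρmul, e]
      have hc1 : ρ (s q * x * (s q)⁻¹) (f q) = f q →
          ρ (s q * x * (s q)⁻¹) (f q') ≠ -f q' :=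
        fun h1 h2 => hcon ⟨_, hx', Or.inl ⟨h1, h2⟩⟩
      have hc2 : ρ (s q * x * (s q)⁻¹) (f q) = -f q →
          ρ (s q * x * (s q)⁻¹) (f q') ≠ f q' :=
        fun h1 h2 => hcon ⟨_, hx', Or.inr ⟨h1, h2⟩⟩
      have hwt' := hwt (s q') _ hx'
      rw [← hf] at hwt'
      constructor
      · intro hxw
        have h1 : ρ (s q * x * (s q)⁻¹) (f q) = f q := by rw [e1, hxw, hf]
        have h2 : ρ (s q * x * (s q)⁻¹) (f q') = f q' := hwt'.resolve_right (hc1 h1)
        rw [e2, h2]
      · intro hxw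
        have h1 : ρ (s q * x * (s q)⁻¹) (f q) = -f q := by rw [e1, hxw, map_neg, hf]
        have h2 : ρ (s q * x * (s q)⁻¹) (f q') = -f q' := hwt'.resolve_left (hc2 h1)
        rw [e2, h2, map_neg]
    obtain ⟨a, ha⟩ := hwline _ hu
    have ha0 : a ≠ 0 := by
      rintro rfl
      rw [zero_smul] at ha
      exact hf0 q' (hρ0 _ _ ha)
    have h3 : ρ ((s q)⁻¹ * s q') w = a • w := by rw [hρmul, ← hf, ha]
    have h4 : (QuotientGroup.mk (s q) : G ⧸ H) = QuotientGroup.mk (s q') := by
      rw [hmkeq, h3]; exact hsign a w ha0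
    rw [hs, hs] at h4; exact h4
  have hli : LinearIndependent (ZMod 3) f :=
    hInd ρ N f hf0 (fun i x hx => by rw [hf]; exact hwt (s i) x hx) hsep
  have hinv : ∀ g : G, ∀ v ∈ Submodule.span (ZMod 3) (Set.range f),
      ρ g v ∈ Submodule.span (ZMod 3) (Set.range f) := by
    intro g v hv
    induction hv using Submodule.span_induction with
    | mem x hx =>
      obtain ⟨q, rfl⟩ := hx
      rcases K1 g q with h | h
      · rw [h]; exact Submodule.subset_span ⟨_, rfl⟩
      · rw [h]; exact neg_mem (Submodule.subset_span ⟨_, rfl⟩)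
    | zero => rw [map_zero]; exact zero_mem _
    | add x y _ _ hx hy => rw [map_add]; exact add_mem hx hy
    | smul a x _ hx => rw [map_smul]; exact Submodule.smul_mem _ a hx
  have hsp : Submodule.span (ZMod 3) (Set.range f) = ⊤ := by
    rcases hirr _ hinv with h | h
    · exfalso
      have h1 : f (QuotientGroup.mk 1) ∈ Submodule.span (ZMod 3) (Set.range f) :=
        Submodule.subset_span ⟨_, rfl⟩
      rw [h, Submodule.mem_bot] at h1
      exact hf0 _ h1
    · exact h
  have hbb : b * b = b⁻¹ := by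
    apply eq_inv_of_mul_eq_one_left
    rw [← hb3, pow_succ, pow_two]
  have hbH : ¬ (ρ b w = w ∨ ρ b w = -w) := fun h => h.elim hwb.1 hwb.2
  refine ⟨G ⧸ H, inferInstance, Module.Basis.mk hli (by rw [hsp]),
    MulAction.toPermHom G (G ⧸ H), fun g q => if ρ g (f q) = f (g • q) then 1 else -1,
    ?_, ?_, ?_, ?_, ?_⟩
  · intro g i
    simp only [Module.Basis.mk_apply]
    show ρ g (f i) = (if ρ g (f i) = f (g • i) then (1 : ZMod 3) else -1) • f (g • i)
    by_cases h : ρ g (f i) = f (g • i)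
    · rw [if_pos h, one_smul]; exact h
    · rw [if_neg h, neg_smul, one_smul]; exact (K1 g i).resolve_left h
  · intro g i
    by_cases h : ρ g (f i) = f (g • i)
    · left; exact if_pos h
    · right; exact if_neg h
  · intro i j
    obtain ⟨g, hg⟩ := MulAction.exists_smul_eq G i j
    exact ⟨g, hg⟩
  · intro x hx
    exact Equiv.ext (fun q => hσN x hx q)
  · refine ⟨QuotientGroup.mk 1, QuotientGroup.mk b, QuotientGroup.mk (b * b),
      ?_, ?_, ?_, ?_, ?_, ?_, ?_⟩
    · intro h
      rw [hmkeq, inv_one, one_mul] at h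
      exact hbH h
    · intro h
      rw [hmkeq, inv_mul_cancel_left] at h
      exact hbH h
    · intro h
      rw [hmkeq, inv_one, one_mul, hbb] at h
      rcases h with h | h
      · have h1 := hρinv' b w
        rw [h] at h1
        exact hwb.1 h1
      · have h1 := hρinv' b w
        rw [h, map_neg] at h1
        exact hwb.2 (neg_eq_iff_eq_neg.mp h1)
    · show b • (QuotientGroup.mk 1 : G ⧸ H) = QuotientGroup.mk b
      rw [hsm, mul_one]
    · show b • (QuotientGroup.mk b : G ⧸ H) = QuotientGroup.mk (b * b)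
      rw [hsm]
    · show b • (QuotientGroup.mk (b * b) : G ⧸ H) = QuotientGroup.mk 1
      rw [hsm, hbb, mul_inv_cancel]
    · intro j h0 h1 h2
      rw [← hs j] at h0 h1 h2 ⊢
      show b • (QuotientGroup.mk (s j) : G ⧸ H) = QuotientGroup.mk (s j)
      rw [hsm, eq_comm, hmkeq]
      have hj0 : ρ (s j) w ≠ 0 := fun h => hw0 (hρ0 _ _ h)
      rcases hw5 (ρ (s j) w) (hwt (s j)) with ⟨a, ha⟩ | ⟨a, ha⟩ | ⟨a, ha⟩ | h
      · exfalso
        have ha0 : a ≠ 0 := by
          rintro rfl
          rw [zero_smul] at ha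
          exact hj0 ha
        apply h0
        rw [eq_comm, hmkeq, inv_one, one_mul, ha]
        exact hsign a w ha0
      · exfalso
        have ha0 : a ≠ 0 := by
          rintro rfl
          rw [zero_smul] at ha
          exact hj0 ha
        apply h1
        rw [eq_comm, hmkeq, hρmul, ha, map_smul, hρinv]
        exact hsign a w ha0
      · exfalso
        have ha0 : a ≠ 0 := by
          rintro rfl
          rw [zero_smul] at ha
          exact hj0 ha
        apply h2
        rw [eq_comm, hmkeq, hρmul, ha, map_smul, ← hρmul b b w, hρinv]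
        exact hsign a w ha0
      · left
        rw [hρmul, hρmul, h, hρinv]

end Cfsg.Agent.Lib.Helper83.S4415
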